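/-
Groups in which abelian subgroups of equal order are conjugate: basic facts.
-/
import Cfsg.Agent.BG2.P3a
import Cfsg.Agent.Th5.A
import Cfsg.Agent.Char.QSetup
import Cfsg.Agent.Solv.CyclicMax

set_option autoImplicit false
set_option linter.unusedSectionVars false
set_option linter.unusedVariables false

namespace CF.Bgr
open Subgroup Cfsg CF.BG CF.BG2
open scoped commutatorElement

variable {G : Type*} [Group G] [Finite G] {A B C D E H K L M N P Q R S T U W X Y : Subgroup G}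
  {p r : ℕ} {π : Set ℕ} {x y g : G}

/-- abelian subgroups of `L` of equal order are conjugate in `L` -/
def BB (L : Subgroup G) : Prop :=
  ∀ A B, A ≤ L → B ≤ L → Abel A → Abel B → ♯A = ♯B → ∃ g ∈ L, B = cj g A

/-- the same modulo `K` -/
def BBm (K L : Subgroup G) : Prop :=
  ∀ A B, A ≤ L → B ≤ L → K ≤ A → K ≤ B → ⁅A, A⁆ ≤ K → ⁅B, B⁆ ≤ K → ♯A = ♯B → ∃ g ∈ L, B = cj g A

/-- subgroups of `L` of equal order are conjugate in `L` -/
def CC (L : Subgroup G) : Prop := ∀ A B, A ≤ L → B ≤ L → ♯A = ♯B → ∃ g ∈ L, B = cj g A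

theorem card_qt_eq (a : K ⊴ A) (b : K ⊴ B) (e : ♯A = ♯B) : ♯(qt K A) = ♯(qt K B) := by
  have h1 := card_qp (qt K A)
  have h2 := card_qp (qt K B)
  rw [qp_qt_of_normal a] at h1
  rw [qp_qt_of_normal b] at h2
  exact Nat.eq_of_mul_eq_mul_left (card_pos' K) (h1 ▸ h2 ▸ e)

theorem lift_conj (k : K ⊴ L) (a : K ⊴ A) (b : K ⊴ B) {z : Quo K} (hz : z ∈ qt K L)
    (e : qt K B = cj z (qt K A)) : ∃ g ∈ L, B = cj g A := by
  obtain ⟨g, hg, hn, rfl⟩ := mem_qt.1 hz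
  refine ⟨g, hg, ?_⟩
  rw [← qp_qt_of_normal b, e, qp_cj hn, qp_qt_of_normal a]

theorem BBm.qt (h : BBm K L) (k : K ⊴ L) : BB (qt K L) := by
  intro A B a b a' b' e
  obtain ⟨g, hg, e'⟩ := h (qp K A) (qp K B) (qp_le_of_le_qt k a) (qp_le_of_le_qt k b) (le_qp _)
    (le_qp _) ((abel_qt_iff (qp_le_norm _)).1 (by rwa [qt_qp]))
    ((abel_qt_iff (qp_le_norm _)).1 (by rwa [qt_qp])) (by rw [card_qp, card_qp, e])
  refine ⟨qe K g, qe_mem_qt hg (k.norm hg), ?_⟩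
  rw [← qp_cj (k.norm hg), qp_inj] at e'
  exact e'

theorem BBm.of_qt (n : N ⊴ L) (hN : N ≤ K) (k : K ≤ L) (h : BBm (BG.qt N K) (BG.qt N L)) :
    BBm K L := by
  intro A B a b ka kb a' b' e
  have na : N ⊴ A := n.of_le (hN.trans ka) a
  have nb : N ⊴ B := n.of_le (hN.trans kb) b
  obtain ⟨z, hz, e'⟩ := h (BG.qt N A) (BG.qt N B) (qt_mono _ a) (qt_mono _ b) (qt_mono _ ka)
    (qt_mono _ kb) (by rw [← qt_comm na.norm na.norm]; exact qt_mono _ a')
    (by rw [← qt_comm nb.norm nb.norm]; exact qt_mono _ b') (card_qt_eq na nb e)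
  exact lift_conj n na nb hz e'

theorem BB.bbm_bot (h : BB L) : BBm ⊥ L := fun A B a b _ _ a' b' e =>
  h A B a b (der_eq_bot.1 (le_bot_iff.1 a')) (der_eq_bot.1 (le_bot_iff.1 b')) e

theorem CC.of_qt (n : N ⊴ L) (h : CC (BG.qt N L)) (a : A ≤ L) (b : B ≤ L) (na : N ≤ A)
    (nb : N ≤ B) (e : ♯A = ♯B) : ∃ g ∈ L, B = cj g A := by
  have na' : N ⊴ A := n.of_le na a
  have nb' : N ⊴ B := n.of_le nb b
  obtain ⟨z, hz, e'⟩ := h (BG.qt N A) (BG.qt N B) (qt_mono _ a) (qt_mono _ b) (card_qt_eq na' nb' e)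
  exact lift_conj n na' nb' hz e'

theorem CC.of_coprime (n : N ⊴ L) (s : Sol N) (h : CC (BG.qt N L)) (a : A ≤ L) (b : B ≤ L)
    (c : (♯A).Coprime (♯N)) (e : ♯A = ♯B) : ∃ g ∈ L, B = cj g A := by
  have c' : (♯B).Coprime (♯N) := e ▸ c
  obtain ⟨g, hg, e'⟩ := CC.of_qt n h (A := N ⊔ A) (B := N ⊔ B) (sup_le n.le a) (sup_le n.le b)
    le_sup_left le_sup_left (by
      rw [card_sup_of_inf_bot (.inr (a.trans n.norm)) (BG.inf_eq_bot_of_coprime c.symm),
        card_sup_of_inf_bot (.inr (b.trans n.norm)) (BG.inf_eq_bot_of_coprime c'.symm), e])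
  rw [cj_sup, cj_of_norm (n.norm hg)] at e'
  obtain ⟨k, hk, e2⟩ := exists_cj_le_of_le_sup (A := cj g A) (B := B) (K := N)
    ((cj_le_of_mem hg a).trans n.norm) (e' ▸ le_sup_right) c' (.inr s)
  have e3 := eq_of_card_eq e2 (by rw [card_cj, card_cj, e])
  refine ⟨k⁻¹ * g, mul_mem (inv_mem (n.le hk)) hg, ?_⟩
  rw [← cj_cj, ← e3, cj_inv_cj]

theorem hall_card (h : Hall π H M) (k : Hall π K N) (e : ♯M = ♯N) : ♯H = ♯K :=
  Nat.dvd_antisymm (k.dvd_card (e ▸ card_dvd h.le) h.pi) (h.dvd_card (e ▸ card_dvd k.le) k.pi)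

theorem BB.le_of_cyc (h : BB L) (n : N ⊴ L) (a : Abel X) (hX : X ≤ L) (b : Abel Y) (hY : Y ≤ N)
    (e : ♯Y = ♯X) : X ≤ N := by
  obtain ⟨g, hg, rfl⟩ := h Y X (hY.trans n.le) hX b a e
  exact cj_le_of_norm (n.norm hg) hY

theorem BB.elem_le (h : BB L) (n : N ⊴ L) (d : p ∣ ♯N) (x : Elem p 1 X L) : X ≤ N := by
  obtain ⟨Y, hY⟩ := exists_elem_one x.prime d
  exact h.le_of_cyc n x.abel x.le hY.abel hY.le (by rw [hY.card_one, x.card_one])

theorem BB.mem_of_orderOf (h : BB L) (n : N ⊴ L) (hx : x ∈ L) (hy : y ∈ N)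
    (e : orderOf y = orderOf x) : x ∈ N :=
  h.le_of_cyc n (abel_zpowers x) (zpowers_le.2 hx) (abel_zpowers y) (zpowers_le.2 hy)
    (by rw [Nat.card_zpowers, Nat.card_zpowers, e]) (mem_zpowers x)

theorem exists_sq (hp : p.Prime) (hx : PiElt {p} x) (h : x ^ p ≠ 1) :
    ∃ y ∈ zpowers x, orderOf y = p ^ 2 := by
  obtain ⟨k, hk⟩ := PiNat.exists_pow hx (orderOf_pos x).ne'
  have h2 : 2 ≤ k := by
    by_contra h2
    apply h
    rw [← orderOf_dvd_iff_pow_eq_one, hk]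
    interval_cases k <;> simp
  refine ⟨x ^ p ^ (k - 2), pow_mem (mem_zpowers x) _, ?_⟩
  rw [orderOf_pow_of_dvd (pow_pos hp.pos _).ne' (hk ▸ pow_dvd_pow p (by omega)), hk,
    Nat.pow_div (by omega) hp.pos]
  congr 1; omega

theorem BB.pow_eq_one (h : BB L) (e : Elem p 2 E L) (hx : x ∈ L) (k : PiElt {p} x) : x ^ p = 1 := by
  by_contra hne
  obtain ⟨y, hy, ho⟩ := exists_sq e.prime k hne
  obtain ⟨g, -, e'⟩ := h E (zpowers y) e.le (zpowers_le.2 (zpowers_le.2 hx hy)) e.abel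
    (abel_zpowers y) (by rw [e.card, Nat.card_zpowers, ho])
  have := (e.ab.cj g).pow y (e' ▸ mem_zpowers y)
  rw [← orderOf_dvd_iff_pow_eq_one, ho] at this
  have h1 := Nat.le_of_dvd e.prime.pos this
  have h2 := e.prime.one_lt
  nlinarith

/-- a normal subgroup containing a rank two subgroup contains every `p`-subgroup -/
theorem BB.le_of_two (h : BB L) (e : Elem p 2 E L) (n : N ⊴ L) (d : p ∣ ♯N) (hP : P ≤ L)
    (k : PiGrp {p} P) : P ≤ N := by
  intro x hx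
  by_cases h1 : x = 1
  · exact h1 ▸ one_mem _
  exact h.elem_le n d (elem_zpowers' e.prime (hP hx) (h.pow_eq_one e (hP hx) (k.elt hx)) h1)
    (mem_zpowers x)

/-- unique subgroup of order `p` -/
def Uq (p : ℕ) (L : Subgroup G) : Prop := ∀ X Y, Elem p 1 X L → Elem p 1 Y L → X = Y

theorem Uq.mono (h : Uq p L) (k : K ≤ L) : Uq p K := fun X Y x y => h X Y (x.mono k) (y.mono k)

theorem BB.uq (h : BB L) (n : N ⊴ L) (c : Cyc N) (d : p ∣ ♯N) : Uq p L := fun _ _ x y =>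
  c.eq_of_card (h.elem_le n d x) (h.elem_le n d y) (by rw [x.card_one, y.card_one])

theorem Uq.cases (h : Uq p P) (hp : p.Prime) (k : PiGrp {p} P) :
    Cyc P ∨ (p = 2 ∧ ∃ m a b, 1 ≤ m ∧ Char.QSetup P m a b) := by
  have : Fact p.Prime := ⟨hp⟩
  refine (Solv.isCyclic_or_quaternion' k.isPGroup fun U W hU hW => ?_).imp id ?_
  · apply map_injective P.subtype_injective
    exact h _ _ (elem_one hp (map_subtype_le _) (by rw [card_map P.subtype_injective, hU]))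
      (elem_one hp (map_subtype_le _) (by rw [card_map P.subtype_injective, hW]))
  · rintro ⟨h2, m, hm, ⟨e⟩⟩
    obtain ⟨a, b, q⟩ := Char.exists_qSetup e
    exact ⟨h2, m, a, b, hm, q⟩

theorem Uq.cyc_of_abel (h : Uq p P) (k : PiGrp {p} P) (a : Abel P) : Cyc P := by
  refine a.cyc_of_pRank k ?_
  by_contra h2
  obtain ⟨E, e⟩ := exists_elem (p := p) (n := 2) (H := P) (by omega)
  obtain ⟨X, x⟩ := e.exists_le (m := 1) (by omega)
  obtain ⟨Z, z, hz⟩ := e.exists_ne X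
  exact hz (h _ _ (z.mono e.le) (x.mono e.le))

theorem uq_or (p : ℕ) (h : BB L) (n : N ⊴ L) (a : Abelem p N) (h1 : N ≠ ⊥) :
    (Syl p N L ∧ ¬ Cyc N) ∨ (♯N = p ∧ Uq p L) := by
  by_cases c : Cyc N
  · have := a.cyc_iff.1 c
    have h2 := a.pi.logn_pos.2 h1
    refine .inr ⟨?_, h.uq n c (a.pi.dvd_card h1)⟩
    rw [a.pi.card_eq, show logn p (♯N) = 1 by omega, pow_one]
  · have := mt a.cyc_iff.2 c
    obtain ⟨E, e⟩ := a.exists_elem (n := 2) (by omega)
    exact .inl ⟨syl_of_max n.le a.pi fun Q hQ k l =>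
      le_antisymm (h.le_of_two (e.mono n.le) n (a.pi.dvd_card h1) hQ k) l, c⟩

section quat
variable {m : ℕ} {a b : G}

theorem le_of_four (q : Char.QSetup S m a b) (h : ∀ x ∈ S, orderOf x = 4 → x ∈ T) : S ≤ T := by
  have hb : b ∈ T := h b q.b_mem (q.orderOf_of_notMem q.b_mem q.notMem)
  have hn : b * a ∉ zpowers a := fun h' =>
    q.notMem (by simpa using mul_mem h' (inv_mem (mem_zpowers a)))
  have hs := mul_mem q.b_mem q.a_mem
  have ha : a ∈ T := by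
    simpa using mul_mem (inv_mem hb) (h _ hs (q.orderOf_of_notMem hs hn))
  rw [← q.closure_eq, closure_le]
  rintro x (rfl | rfl) <;> assumption

theorem le_z (q : Char.QSetup S m a b) (hT : T ≤ S) (h : ∀ x ∈ T, orderOf x ≠ 4) :
    T ≤ zpowers (a ^ 2 ^ m) := by
  intro x hx
  have k : PiGrp {2} S := piGrp_of_isPGroup Nat.prime_two q.isPGroup
  by_cases h1 : x = 1
  · exact h1 ▸ one_mem _
  by_cases h2 : x ^ 2 = 1
  · rw [q.eq_z (hT hx) (orderOf_eq_of_pow Nat.prime_two h2 h1)]; exact mem_zpowers _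
  obtain ⟨y, hy, ho⟩ := exists_sq Nat.prime_two (k.elt (hT hx)) h2
  exact (h y (zpowers_le.2 hx hy) ho).elim

theorem not_abel (q : Char.QSetup S m a b) (hm : 1 ≤ m) : ¬ Abel S := fun h => by
  have h1 := q.hba
  rw [h.mul_comm q.b_mem q.a_mem, mul_inv_cancel_right] at h1
  apply q.mul_self_ne_one hm
  nth_rewrite 1 [h1]; simp

/-- a quaternion Sylow subgroup has order eight -/
theorem BB.eight (h : BB L) (s : Sol L) (hS : Syl 2 S L) (q : Char.QSetup S m a b) (hm : 1 ≤ m) :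
    m = 1 := by
  by_contra hm2
  have hT := hS.inf_O2
  have n2 := O2_normal ({2} : Set ℕ)ᶜ {2} L
  have ob := q.orderOf_of_notMem q.b_mem q.notMem
  have hle : S ≤ O2 ({2} : Set ℕ)ᶜ {2} L := by
    by_cases h4 : ∃ y ∈ S ⊓ O2 ({2} : Set ℕ)ᶜ {2} L, orderOf y = 4
    · obtain ⟨y, hy, ho⟩ := h4
      exact le_of_four q fun x hx hx4 => h.mem_of_orderOf n2 (hS.le hx) hy.2 (ho.trans hx4.symm)
    · push Not at h4
      refine le_trans (le_inf hS.le ?_) (s.cent_le_O2 hT)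
      refine cent_mono (A := S) (H := zpowers (a ^ 2 ^ m)) ?_ le_rfl (le_z q inf_le_left h4)
      rw [cent_zpowers]
      exact fun x hx => mem_cent1.2 (q.commute_z hx).eq
  have fr := (pLen1_of_syl hS hle).frattini hS
  set u := a ^ 2 ^ (m - 1) with hu
  have ou : orderOf u = 4 := by
    rw [hu, orderOf_pow_of_dvd (by positivity) (q.ha ▸ pow_dvd_pow 2 (by omega)), q.ha,
      Nat.pow_div (by omega) (by norm_num), show m + 1 - (m - 1) = 2 by omega]
  have uS : u ∈ S := pow_mem q.a_mem _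
  obtain ⟨g, hg, e⟩ := h (zpowers u) (zpowers b) (zpowers_le.2 (hS.le uS))
    (zpowers_le.2 (hS.le q.b_mem)) (abel_zpowers _) (abel_zpowers _)
    (by rw [Nat.card_zpowers, Nat.card_zpowers, ou, ob])
  rw [← fr] at hg
  obtain ⟨o, ho, n, hn, rfl⟩ := (mem_sup_norm' (inf_le_left.trans (O_normal _ L).norm)).1 hg
  have a' : n * a * n⁻¹ ∈ S := conj_mem_of_norm hn.2 q.a_mem
  have a2 : n * a * n⁻¹ ∈ zpowers a := by
    by_contra h'
    have := q.orderOf_of_notMem a' h'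
    rw [orderOf_conj', q.ha, show (4 : ℕ) = 2 ^ 2 by norm_num] at this
    have := Nat.pow_right_injective (le_refl 2) this
    omega
  have hb : b ∈ cj o (zpowers a) := by
    refine (show cj (o * n) (zpowers u) ≤ cj o (zpowers a) from ?_) (e ▸ mem_zpowers b)
    rw [← cj_cj, cj_le_cj, cj_zpowers, zpowers_le, hu, ← conj_pow]
    exact pow_mem a2 _
  obtain ⟨c, hc, e2⟩ := mem_cj_iff.1 hb
  have cS := q.zpowers_le hc
  have : b * c⁻¹ ∈ S ⊓ 𝐎 ({2} : Set ℕ)ᶜ L := by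
    refine mem_inf.2 ⟨mul_mem q.b_mem (inv_mem cS), ?_⟩
    rw [← e2, show o * c * o⁻¹ * c⁻¹ = o * (c * o⁻¹ * c⁻¹) by group]
    exact mul_mem ho ((O_normal _ L).conj_mem (hS.le cS) (inv_mem ho))
  rw [hS.pi.inf_eq_bot (O_pi _ L), mem_bot, mul_inv_eq_one] at this
  exact q.notMem (this ▸ hc)

end quat

end CF.Bgr
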