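/-
Groups in which abelian subgroups of equal order are conjugate: quotients.
-/
import Cfsg.Agent.Bgr.A

set_option autoImplicit false
set_option linter.unusedSectionVars false
set_option linter.unusedVariables false

namespace CF.Bgr
open Subgroup Cfsg CF.BG CF.BG2
open scoped commutatorElement

universe u

section
variable {G : Type*} [Group G] [Finite G] {A B C D E H K L M N P Q R S T U W X Y : Subgroup G}
  {p r : ℕ} {π : Set ℕ} {x y g : G}

theorem abel_of_der_le (h : ⁅A, A⁆ ≤ N) (hH : H ≤ A) (i : N ⊓ H = ⊥) : Abel H :=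
  der_eq_bot.1 (eq_bot_mono i (le_inf ((der_mono hH).trans h) (der_le H)))

theorem split (hp : p.Prime) (c : ♯N = p) (q : Uq p L) (a : A ≤ L) (na : N ≤ A) (a' : ⁅A, A⁆ ≤ N)
    (d : p ∣ N.relIndex A) :
    ∃ P H, Syl p P A ∧ Hall ({p} : Set ℕ)ᶜ H A ∧ DProd P H A ∧ Abel H := by
  have k : PiGrp {p} N := piGrp_of_card_prime hp c
  obtain ⟨P, hP, nP⟩ := exists_syl_le na k
  have n : A ≤ 𝐍 P := norm_of_der_le hP.le (a'.trans nP)
  obtain ⟨H, sd, hH⟩ := hP.exists_compl n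
  have cop : (♯H).Coprime (♯P) := hH.pi.coprime' hP.pi
  refine ⟨P, H, hP, hH, sd.dprod ?_, abel_of_der_le a' hH.le (k.inf_eq_bot hH.pi)⟩
  have cm : ⁅P, H⁆ ≤ N := (commutator_mono hP.le hH.le).trans a'
  rcases (q.mono (hP.le.trans a)).cases hp hP.pi with h | ⟨rfl, -⟩
  · refine (h.comm_eq_bot_or hP.pi sd.norm cop).resolve_right fun e => ?_
    rw [e] at cm
    exact hP.not_dvd hp (le_antisymm nP cm ▸ d)
  · exact cent_of_stable (hH.pi.coprime' k) cm
      (Th5.cent_of_two (hH.le.trans (norm_of_der_le na a')) c)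

theorem BB.step (h : BB L) (n : N ⊴ L) (ab : Abelem p N) (h1 : N ≠ ⊥) (s : p ≠ 2 ∨ Sol L) :
    BBm N L := by
  intro A B a b na nb a' b' e
  have hp := ab.pi.prime h1
  have ei : N.relIndex A = N.relIndex B := Nat.eq_of_mul_eq_mul_left (card_pos' N)
    (by rw [card_mul_relIndex na, card_mul_relIndex nb, e])
  by_cases d : p ∣ N.relIndex A
  swap
  · obtain ⟨A1, sa, ha⟩ := (syl_mk hp na ab.pi d).exists_compl (a.trans n.norm)
    obtain ⟨B1, sb, hb⟩ := (syl_mk hp nb ab.pi (ei ▸ d)).exists_compl (b.trans n.norm)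
    obtain ⟨g, hg, e'⟩ := h A1 B1 (ha.le.trans a) (hb.le.trans b) (abel_of_der_le a' ha.le sa.inf)
      (abel_of_der_le b' hb.le sb.inf) (hall_card ha hb e)
    exact ⟨g, hg, by rw [← sa.sup, ← sb.sup, cj_sup, cj_of_norm (n.norm hg), e']⟩
  obtain ⟨c, q⟩ := (uq_or p h n ab h1).resolve_left fun h' =>
    (h'.1.of_le na a).not_dvd hp d
  obtain ⟨P, A1, hP, ha, da, aa⟩ := split hp c q a na a' d
  obtain ⟨Q, B1, hQ, hb, db, bb⟩ := split hp c q b nb b' (ei ▸ d)
  have ec := hall_card hP hQ e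
  have ec' := hall_card ha hb e
  by_cases hab : Abel P ∧ Abel Q
  · exact h A B a b (da.abel hab.1 aa) (db.abel hab.2 bb) e
  have big : 3 ≤ logn p (♯P) := by
    by_contra h3
    exact hab ⟨hP.pi.abel_of_logn (by omega), hQ.pi.abel_of_logn (by rw [← ec]; omega)⟩
  obtain ⟨S, hS⟩ := exists_syl p L
  have nc : ¬ Cyc S := fun cS => by
    obtain ⟨g, -, e1⟩ := hS.syl_cj_le (hP.le.trans a) hP.pi
    obtain ⟨g', -, e2⟩ := hS.syl_cj_le (hQ.le.trans b) hQ.pi
    exact hab ⟨abel_cj.1 (cS.mono e1).abel, abel_cj.1 (cS.mono e2).abel⟩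
  obtain ⟨rfl, m, x, y, hm, qs⟩ := ((q.mono hS.le).cases hp hS.pi).resolve_left nc
  have sl : Sol L := s.resolve_left fun h => h rfl
  have c8 := qs.card_eq
  rw [h.eight sl hS qs hm] at c8
  have l8 : logn 2 (♯L) = 3 := by rw [← hS.logn_eq rfl, c8, logn_pow hp]
  have sP : Syl 2 P L := syl_of_logn (hP.le.trans a) hP.pi (by omega)
  have sQ : Syl 2 Q L := syl_of_logn (hQ.le.trans b) hQ.pi (by rw [← ec]; omega)
  obtain ⟨U, -, uP, lU⟩ := hP.pi.exists_logn_between (n := 2) bot_le (by simp [logn]) (by omega)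
  obtain ⟨W, -, wQ, lW⟩ := hQ.pi.exists_logn_between (n := 2) bot_le (by simp [logn])
    (by rw [← ec]; omega)
  have kU := hP.pi.le uP
  have kW := hQ.pi.le wQ
  have d1 : DProd U A1 (U ⊔ A1) := .mk' (da.cent.trans (cent_anti uP)) (kU.inf_eq_bot ha.pi)
  have d2 : DProd W B1 (W ⊔ B1) := .mk' (db.cent.trans (cent_anti wQ)) (kW.inf_eq_bot hb.pi)
  have ab2 := d2.abel (kW.abel_of_logn lW.le) bb
  obtain ⟨g, hg, e1⟩ := h (U ⊔ A1) (W ⊔ B1) (sup_le (uP.trans sP.le) (ha.le.trans a))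
    (sup_le (wQ.trans sQ.le) (hb.le.trans b)) (d1.abel (kU.abel_of_logn lU.le) aa) ab2
    (by rw [← d1.card, ← d2.card, ec', kU.card_eq, kW.card_eq, lU, lW])
  have e2 : B1 = cj g A1 := by
    have h1 := (d1.sdprod.hall_right kU.compl_compl ha.pi).cj g
    rw [← e1] at h1
    rw [ab2.nil.hall_eq h1, ← ab2.nil.hall_eq (d2.sdprod.hall_right kW.compl_compl hb.pi)]
  have s1 : Syl 2 (cj g P) (L ⊓ 𝐂 B1) := (sP.cj_of_mem hg).of_le
    (le_inf (sP.cj_of_mem hg).le (by rw [e2, cj_cent_iff]; exact da.cent')) inf_le_left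
  have s2 : Syl 2 Q (L ⊓ 𝐂 B1) := sQ.of_le (le_inf sQ.le db.cent') inf_le_left
  obtain ⟨k, hk, e3⟩ := s1.syl_conj s2
  refine ⟨k * g, mul_mem hk.1 hg, ?_⟩
  rw [← da.sup, ← db.sup, ← cj_cj, cj_sup, cj_sup, ← e3, ← e2, cj_of_cent hk.2]

end

theorem bbm_aux (n : ℕ) : ∀ {G : Type u} [Group G] [Finite G] {K L : Subgroup G}, ♯K < n → BB L →
    K ⊴ L → Sol K → (Odd (♯K) ∨ Sol L) → BBm K L := by
  induction n with
  | zero => intro G _ _ K L h; omega
  | succ n ih =>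
    intro G _ _ K L hn h k s o
    by_cases h1 : K = ⊥
    · exact h1 ▸ h.bbm_bot
    obtain ⟨p, N, hp, n1, nK, nL, ab⟩ := s.exists_abelem_norm h1 k.norm
    have nL' : N ⊴ L := ⟨nK.le.trans k.le, nL⟩
    have h2 := (h.step nL' ab n1 (o.imp (fun o => ne_two_of_odd o
      ((ab.pi.dvd_card n1).trans (card_dvd nK.le))) id)).qt nL'
    exact BBm.of_qt nL' nK.le k.le (ih (by have := card_qt_lt nK n1; omega) h2 (k.qt N) (s.qt N)
      (o.imp (odd_qt N) fun s => s.qt N))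

variable {G : Type*} [Group G] [Finite G] {K L : Subgroup G}

theorem BB.bbm (h : BB L) (k : K ⊴ L) (s : Sol K) (o : Odd (♯K) ∨ Sol L) : BBm K L :=
  bbm_aux _ (Nat.lt_succ_self _) h k s o

theorem BB.qt (h : BB L) (k : K ⊴ L) (s : Sol L) : BB (qt K L) :=
  (h.bbm k (s.mono k.le) (.inr s)).qt k

theorem bb_top (hB : ∀ A B : Subgroup G, IsMulCommutative ↥A → IsMulCommutative ↥B →
    Nat.card ↥A = Nat.card ↥B → ∃ g : G, B = A.map (MulAut.conj g).toMonoidHom) :
    BB (⊤ : Subgroup G) := fun A B _ _ a b e =>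
  let ⟨g, h⟩ := hB A B a.comm b.comm e; ⟨g, mem_top g, h⟩

theorem BBm.quot {M : Subgroup G} [M.Normal] (h : BBm M ⊤) (A B : Subgroup (G ⧸ M))
    (a : IsMulCommutative ↥A) (b : IsMulCommutative ↥B) (e : Nat.card ↥A = Nat.card ↥B) :
    ∃ g : G ⧸ M, B = A.map (MulAut.conj g).toMonoidHom := by
  have sj := QuotientGroup.mk'_surjective M
  have le : ∀ X : Subgroup (G ⧸ M), M ≤ X.comap (QuotientGroup.mk' M) := fun X x hx => by
    rw [mem_comap, QuotientGroup.mk'_apply, (QuotientGroup.eq_one_iff x).2 hx]; exact one_mem _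
  have der : ∀ X : Subgroup (G ⧸ M), IsMulCommutative X →
      ⁅X.comap (QuotientGroup.mk' M), X.comap (QuotientGroup.mk' M)⁆ ≤ M := fun X hX => by
    rw [commutator_le]
    intro x hx y hy
    rw [← QuotientGroup.eq_one_iff, ← QuotientGroup.mk'_apply, map_commutatorElement,
      commutatorElement_eq_one_iff_mul_comm]
    exact (Abel.of_comm hX).mul_comm hx hy
  have cd : ∀ X : Subgroup (G ⧸ M), ♯(X.comap (QuotientGroup.mk' M)) * X.index = Nat.card G :=
    fun X => by rw [← index_comap_of_surjective X sj, card_mul_index]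
  have ei : A.index = B.index := Nat.eq_of_mul_eq_mul_left (card_pos' A)
    (by rw [card_mul_index, e, card_mul_index])
  obtain ⟨g, -, e'⟩ := h _ _ le_top le_top (le A) (le B) (der A a) (der B b)
    (Nat.eq_of_mul_eq_mul_right (Nat.pos_of_ne_zero index_ne_zero_of_finite)
      (by rw [cd A, ei, cd B]))
  refine ⟨QuotientGroup.mk' M g, ?_⟩
  rw [← map_comap_eq_self_of_surjective sj B, e', map_cj, map_comap_eq_self_of_surjective sj]
  rfl

end CF.Bgr
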