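/-
Groups in which abelian subgroups of equal order are conjugate: stabilisers of proper subspaces.
-/
import Cfsg.Agent.Bgr.B

set_option autoImplicit false
set_option linter.unusedSectionVars false
set_option linter.unusedVariables false

namespace CF.Bgr
open Subgroup Cfsg CF.BG CF.BG2
open scoped commutatorElement

variable {G : Type*} [Group G] [Finite G] {A B C D E H K L M N P Q R S T U W X Y : Subgroup G}
  {p r s : ℕ} {π : Set ℕ} {x y g : G}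

theorem BB.compl (h : BB L) (sd : SDProd M H L) : BB H := by
  intro A B a b a' b' e
  obtain ⟨g, hg, e'⟩ := h A B (a.trans sd.right_le) (b.trans sd.right_le) a' b' e
  obtain ⟨m, hm, k, hk, rfl⟩ := sd.exists_mul hg
  refine ⟨k, hk, ?_⟩
  rw [← cj_cj] at e'
  rw [e']
  refine cj_of_cent (mem_cent.2 fun x hx => ?_)
  have h1 : m * x * m⁻¹ ∈ B := e' ▸ conj_mem_cj.2 hx
  have hx' : x ∈ H := cj_le_of_mem hk a hx
  have : m * x * m⁻¹ * x⁻¹ ∈ M ⊓ H := by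
    refine mem_inf.2 ⟨?_, mul_mem (b h1) (inv_mem hx')⟩
    rw [show m * x * m⁻¹ * x⁻¹ = m * (x * m⁻¹ * x⁻¹) by group]
    exact mul_mem hm (conj_mem_of_norm (sd.norm hx') (inv_mem hm))
  rw [sd.inf, mem_bot, mul_inv_eq_one, mul_inv_eq_iff_eq_mul] at this
  exact this.symm

structure Key (p : ℕ) (M H : Subgroup G) : Prop where
  ab : Abelem p M
  ne : M ≠ ⊥
  pi : PiGrp ({p} : Set ℕ)ᶜ H
  nm : H ≤ 𝐍 M
  fa : H ⊓ 𝐂 M = ⊥
  bb : BB H
  sol : Sol H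
  tr : ∀ U W, U ≤ M → W ≤ M → ♯U = ♯W → ∃ h ∈ H, W = cj h U

theorem Key.reg (k : Key p M H) (n : Y ⊴ H) (a : Abel Y) : Reg M Y := by
  intro y hy y1
  by_contra hne
  obtain ⟨v, hv, v1⟩ := exists_mem_ne_one hne
  set X := Y ⊓ 𝐂₁ v with hX
  have xY : X ≤ Y := inf_le_left
  have xM : X ≤ 𝐍 M := xY.trans (n.le.trans k.nm)
  have cop : (♯X).Coprime (♯M) := (k.pi.le (xY.trans n.le)).coprime' k.ab.pi
  have yX : y ∈ X := mem_inf.2 ⟨hy, mem_cent1_comm.1 hv.2⟩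
  have dp := k.ab.abel.dprod_cent_comm xM cop
  have c1 : ⁅M, X⁆ ≠ ⊥ := fun h => y1 (eq_one_of_mem_bot k.fa
    (mem_inf.2 ⟨n.le hy, comm_eq_bot'.1 h yX⟩))
  obtain ⟨w, hw, w1⟩ := exists_mem_ne_one c1
  have vC : v ∈ M ⊓ 𝐂 X := mem_inf.2 ⟨hv.1, le_cent1_iff.1 inf_le_right⟩
  have wM := dp.right_le hw
  have u1 : v * w ≠ 1 := fun h => w1 (eq_one_of_mem_bot dp.inf
    (mem_inf.2 ⟨by rw [eq_inv_of_mul_eq_one_right h]; exact inv_mem vC, hw⟩))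
  have uM := mul_mem hv.1 wM
  have yM : Y ≤ 𝐍 M := n.le.trans k.nm
  have yx : Y ≤ 𝐍 X := a.le_norm xY
  have le : Y ⊓ 𝐂₁ (v * w) ≤ X := by
    intro z hz
    refine mem_inf.2 ⟨hz.1, mem_cent1.2 ?_⟩
    have h1 : z * v * z⁻¹ ∈ M ⊓ 𝐂 X := conj_mem_of_norm (norm_inf_cent yM yx hz.1) vC
    have h2 : z * w * z⁻¹ ∈ ⁅M, X⁆ := conj_mem_of_norm (norm_commutator yM yx hz.1) hw
    have h3 := mem_cent1.1 hz.2
    have h4 : v⁻¹ * (z * v * z⁻¹) = w * (z * w * z⁻¹)⁻¹ := by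
      have : z * v = v * w * z * w⁻¹ := by rw [← h3]; group
      rw [this]; group
    have h5 : v⁻¹ * (z * v * z⁻¹) ∈ (M ⊓ 𝐂 X) ⊓ ⁅M, X⁆ :=
      mem_inf.2 ⟨mul_mem (inv_mem vC) h1, h4 ▸ mul_mem hw (inv_mem h2)⟩
    rw [dp.inf, mem_bot, inv_mul_eq_one, eq_mul_inv_iff_mul_eq] at h5
    exact h5.symm
  obtain ⟨h, hh, e⟩ := k.tr (zpowers v) (zpowers (v * w)) (zpowers_le.2 hv.1) (zpowers_le.2 uM)
    (by rw [k.ab.card_zpowers hv.1 v1, k.ab.card_zpowers uM u1])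
  have e2 : Y ⊓ 𝐂₁ (v * w) = cj h X := by
    rw [hX, cj_inf, cj_of_norm (n.norm hh), ← cent_zpowers, ← cent_zpowers, cj_cent, e]
  have e3 := eq_of_card_eq le (by rw [e2, card_cj])
  have uC : v * w ∈ 𝐂 X := le_cent1_iff.1 (e3 ▸ inf_le_right)
  have wC : w ∈ 𝐂 X := by simpa using mul_mem (inv_mem (mem_inf.1 vC).2) uC
  exact w1 (eq_one_of_mem_bot dp.inf (mem_inf.2 ⟨mem_inf.2 ⟨wM, wC⟩, hw⟩))

theorem Key.uq (k : Key p M H) (h : 𝐎 {s} H ≠ ⊥) : Uq s H := by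
  have n : 𝐙 (𝐎 {s} H) ⊴ H := (O_normal _ H).char inf_le_left (norm_center _)
  have c := (k.reg n (center_abel _)).cyc_of_abel (n.le.trans k.nm) k.ne (center_abel _)
  exact k.bb.uq n c (((O_pi _ H).le inf_le_left).dvd_card ((O_pi _ H).center_ne_bot h))

theorem Key.abel (k : Key p M H) (n : T ⊴ H) (w : W < M) (w1 : W ≠ ⊥) (t : T ≤ 𝐍 W) :
    Abel T := by
  have hp := k.ab.pi.prime k.ne
  have all : ∀ U, U ≤ M → ♯U = ♯W → T ≤ 𝐍 U := fun U hU e => by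
    obtain ⟨h, hh, rfl⟩ := k.tr W U w.le hU e.symm
    rw [← cj_of_norm (n.norm hh), cj_norm_iff]; exact t
  have one : ∀ x ∈ M, x ≠ 1 → T ≤ 𝐍 (zpowers x) := fun x hx x1 => by
    have eX := k.ab.elem_zpowers hx x1
    refine le_norm_of_cj_le fun ρ hρ => ?_
    rw [cj_zpowers]
    have hy : ρ * x * ρ⁻¹ ∈ M := conj_mem_of_norm (k.nm (n.le hρ)) hx
    have eY := k.ab.elem_zpowers hy (by simpa using x1)
    by_contra hne
    have e2 := eX.sup_one eY (k.ab.abel.cent eY.le eX.le) hne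
    obtain ⟨Z, dZ⟩ := k.ab.exists_compl e2.le
    have aZ := (k.ab.le dZ.right_le).elem dZ.right_le
    have iZ : zpowers x ⊓ Z = ⊥ := eq_bot_mono dZ.inf (inf_le_inf_right _ le_sup_left)
    have e1 := eX.sup aZ (k.ab.abel.cent eX.le aZ.le) iZ
    have lM : logn p (♯M) = 2 + logn p (♯Z) := by
      rw [← dZ.card, logn_mul (card_ne_zero' _) (card_ne_zero' _), e2.log]
    have l1 := k.ab.pi.logn_lt w
    have l2 := (k.ab.pi.le w.le).logn_pos.2 w1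
    obtain ⟨U, eU, xU⟩ := e1.ab.exists_between (n := logn p (♯W)) (B := zpowers x) le_sup_left
      (by rw [eX.log]; omega) (by rw [e1.log]; omega)
    have hT := all U (eU.le.trans e1.le) (by rw [eU.card, ← (k.ab.pi.le w.le).card_eq])
    have h1 : ρ * x * ρ⁻¹ ∈ (zpowers x ⊔ Z) ⊓ (zpowers x ⊔ zpowers (ρ * x * ρ⁻¹)) :=
      mem_inf.2 ⟨eU.le (conj_mem_of_norm (hT hρ) (xU (mem_zpowers x))),
        mem_sup_right (mem_zpowers _)⟩
    rw [sup_inf_left le_sup_left (.inl (norm_of_cent (k.ab.abel.cent eX.le aZ.le))), inf_comm,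
      dZ.inf, sup_bot_eq] at h1
    exact hne (zpowers_le.2 h1)
  refine der_eq_bot.1 (eq_bot_mono k.fa (le_inf ((der_le T).trans n.le) (cent_symm fun x hx => ?_)))
  by_cases x1 : x = 1
  · exact x1 ▸ one_mem _
  exact cent_symm ((cyc_zpowers x).der_le_cent (one x hx x1)) (mem_zpowers x)

theorem le_cent_F (h : ∀ s : ℕ, s.Prime → 𝐎 {s} H ≠ ⊥ → X ≤ 𝐂 (𝐎 {s} H)) : X ≤ 𝐂 (𝐅 H) :=
  cent_symm (F_le_of_forall fun s hs _ => by
    by_cases h1 : 𝐎 {s} H = ⊥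
    · rw [h1]; exact bot_le
    · exact cent_symm (h s hs h1))

theorem Key.cyc_one (k : Key p M H) (hr : r.Prime) (hR : R ≤ H) (kR : PiGrp {r} R) (w : W < M)
    (w1 : W ≠ ⊥) (t : R ≤ 𝐍 W) (o : 𝐎 {r} H ≠ ⊥) : Cyc R := by
  by_contra nc
  have q := k.uq o
  obtain ⟨S, hS, rS⟩ := exists_syl_le hR kR
  obtain ⟨rfl, m', a', b', hm', qR⟩ := ((q.mono hR).cases hr kR).resolve_left nc
  obtain ⟨-, m, a, b, hm, qS⟩ := ((q.mono hS.le).cases hr hS.pi).resolve_left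
    fun c => nc (c.mono rS)
  obtain rfl := k.bb.eight k.sol hS qS hm
  obtain rfl : R = S := eq_of_card_le rS (by
    rw [qS.card_eq, qR.card_eq]; exact Nat.pow_le_pow_right (by norm_num) (by omega))
  have nT := O_normal ({2} : Set ℕ) H
  by_cases h4 : ∃ y ∈ 𝐎 ({2} : Set ℕ) H, orderOf y = 4
  · obtain ⟨y, hy, ho⟩ := h4
    have e := le_antisymm (le_of_four qS fun x hx hx4 =>
      k.bb.mem_of_orderOf nT (hS.le hx) hy (ho.trans hx4.symm)) hS.O_le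
    exact not_abel qS hm (k.abel (e ▸ nT) w w1 t)
  push Not at h4
  have d : ⁅H, H⁆ ≤ 𝐅 H := by
    refine le_trans (le_inf (der_le H) (le_cent_F fun s hs h1 => ?_)) k.sol.cent_F_le
    refine Cyc.der_le_cent ?_ (O_normal _ H).norm
    rcases ((k.uq h1).mono (O_le _ H)).cases hs (O_pi _ H) with c | ⟨rfl, -⟩
    · exact c
    · exact (cyc_zpowers _).mono (le_z qS hS.O_le h4)
  have ob := qS.orderOf_of_notMem qS.b_mem qS.notMem
  obtain ⟨g, hg, e⟩ := k.bb (zpowers a) (zpowers b) (zpowers_le.2 (hS.le qS.a_mem))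
    (zpowers_le.2 (hS.le qS.b_mem)) (abel_zpowers _) (abel_zpowers _)
    (by rw [Nat.card_zpowers, Nat.card_zpowers, qS.ha, ob]; norm_num)
  obtain ⟨c, hc, e2⟩ := mem_cj_iff.1 (e ▸ mem_zpowers b : b ∈ cj g (zpowers a))
  have cS := qS.zpowers_le hc
  have h1 : b * c⁻¹ ∈ R := mul_mem qS.b_mem (inv_mem cS)
  have h2 : b * c⁻¹ ∈ 𝐅 H := d (by
    rw [← e2, ← commutatorElement_def]; exact commutator_mem_commutator hg (hS.le cS))
  have h3 : b * c⁻¹ ∈ 𝐎 ({2} : Set ℕ) H :=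
    le_O_of_le_F (K := zpowers (b * c⁻¹)) (zpowers_le.2 h2) (kR.elt h1).zpowers (mem_zpowers _)
  exact h4 _ h3 (qS.orderOf_of_notMem h1 fun h' => qS.notMem (by simpa using mul_mem h' hc))

theorem Key.cyc_two (k : Key p M H) (hr : r.Prime) (hR : R ≤ H) (kR : PiGrp {r} R)
    (o : 𝐎 {r} H = ⊥) : Cyc R := by
  by_contra nc
  obtain ⟨X, eX⟩ := kR.exists_elem_one (fun h => nc (h ▸ cyc_bot))
  have xH := eX.le.trans hR
  suffices h : X ≤ 𝐂 (𝐅 H) from eX.ne_bot (eq_bot_mono o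
    (le_O_of_le_F (le_trans (le_inf xH h) k.sol.cent_F_le) eX.pi))
  refine le_cent_F fun s hs h1 => ?_
  have nO := O_normal ({s} : Set ℕ) H
  have kO := O_pi ({s} : Set ℕ) H
  have sr : r ≠ s := fun e => h1 (e ▸ o)
  have cop : ∀ Y, Y ≤ R → ∀ Z, Z ≤ 𝐎 {s} H → (♯Y).Coprime (♯Z) := fun Y hY Z hZ =>
    ((kR.le hY).of_single_ne sr).coprime' (kO.le hZ)
  suffices h : R ⊓ 𝐂 (𝐎 {s} H) ≠ ⊥ from
    (k.bb.elem_le (normalIn_inf_cent nO.norm) (((kR.le inf_le_left).dvd_card h).trans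
      (card_dvd (inf_le_inf_right _ hR))) (eX.mono hR)).trans inf_le_right
  intro h0
  have rO : R ≤ 𝐍 (𝐎 {s} H) := hR.trans nO.norm
  rcases ((k.uq h1).mono nO.le).cases hs kO with c | ⟨rfl, m, a, b, hm, q⟩
  · have eO := c.elem_Om' kO h1
    have i : R ⊓ 𝐂 (𝛀 s (𝐎 {s} H)) = ⊥ := eq_bot_mono h0 (le_inf inf_le_left
      (c.abel.cent_of_Om kO (inf_le_left.trans rO) (cop _ inf_le_left _ le_rfl) inf_le_right))
    have nO' := le_norm_Om s rO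
    refine nc (Reg.cyc_of_abel (K := 𝛀 s (𝐎 {s} H)) (fun x hx x1 => ?_) nO' eO.ne_bot
      (der_eq_bot.1 (eq_bot_mono i (le_inf (der_le R) (eO.cyc.der_le_cent nO')))))
    exact (inf_eq_bot_or_le_of_prime eO.card_prime _).resolve_right fun h =>
      x1 (eq_one_of_mem_bot i (mem_inf.2 ⟨hx, le_cent1_iff.1 h⟩))
  obtain ⟨S, hS⟩ := exists_syl 2 H
  obtain ⟨-, m', a', b', hm', qS⟩ := (((k.uq h1).mono hS.le).cases hs hS.pi).resolve_left
    fun c => not_abel q hm (c.mono hS.O_le).abel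
  obtain rfl := k.bb.eight k.sol hS qS hm'
  have c8 : ♯(𝐎 ({2} : Set ℕ) H) = 8 := by
    have h2 := card_le hS.O_le
    have h3 : 2 ^ (1 + 2) ≤ 2 ^ (m + 2) := Nat.pow_le_pow_right (by norm_num) (by omega)
    rw [qS.card_eq] at h2
    rw [← q.card_eq] at h3
    omega
  have od : Odd (♯R) := by
    obtain ⟨j, hj⟩ := kR.card_pow
    exact hj ▸ (hr.odd_of_ne_two sr).pow
  obtain ⟨E, eE⟩ := kR.exists_elem_two od nc
  have : ¬ ∀ x ∈ E, x ≠ 1 → 𝐎 ({2} : Set ℕ) H ⊓ 𝐂₁ x ≤ zpowers (a ^ 2 ^ m) := fun h =>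
    not_abel q hm ((abel_zpowers _).mono
      (eE.abel.le_of_cent1 eE.not_cyc (eE.le.trans rO) (cop _ eE.le _ le_rfl) h))
  push Not at this
  obtain ⟨x, hx, x1, hn⟩ := this
  have : ¬ ∀ y ∈ 𝐎 ({2} : Set ℕ) H ⊓ 𝐂₁ x, orderOf y ≠ 4 := fun h => hn (le_z q inf_le_left h)
  push Not at this
  obtain ⟨w, hw, w4⟩ := this
  have wO : zpowers w ≤ 𝐎 ({2} : Set ℕ) H := zpowers_le.2 hw.1
  have c4 : ♯(zpowers w) = 4 := by rw [Nat.card_zpowers, w4]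
  have n1 : 𝐎 ({2} : Set ℕ) H ≤ 𝐍 (zpowers w) := kO.norm_of_logn wO (by
    rw [c8, c4, show 8 = 2 ^ 3 by norm_num, show 4 = 2 ^ 2 by norm_num, logn_pow hs, logn_pow hs])
  have xc : zpowers x ≤ 𝐂 (zpowers w) := by
    rw [cent_zpowers, zpowers_le]; exact mem_cent1_comm.1 hw.2
  have xR : zpowers x ≤ R := zpowers_le.2 (eE.le hx)
  have c2 : ♯(BG.qt (zpowers w) (𝐎 ({2} : Set ℕ) H)) = 2 := by
    have := card_mul_relIndex wO
    rw [card_qt n1]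
    rw [c4, c8] at this
    omega
  have cm := (qt_cent_iff (norm_of_cent xc) n1).1 (Th5.cent_of_two (qt_norm _ (xR.trans rO)) c2)
  rw [commutator_comm] at cm
  exact x1 (eq_one_of_mem_bot h0 (mem_inf.2 ⟨eE.le hx,
    cent_of_stable (cop _ xR _ wO) cm xc (mem_zpowers x)⟩))

theorem key (h : BB L) (s : Sol L) (n : M ⊴ L) (ab : Abelem p M) (sy : Syl p M L)
    (c : L ⊓ 𝐂 M ≤ M) (w : W < M) (w1 : W ≠ ⊥) (hr : r.Prime) (rp : r ≠ p) (hR : R ≤ L)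
    (kR : PiGrp {r} R) (t : R ≤ 𝐍 W) : Cyc R := by
  obtain ⟨H, hH, rH⟩ := s.exists_hall_le hR (kR.of_single_ne rp)
  have sd := sy.sdprod n.norm hH
  have k : Key p M H := ⟨ab, ne_bot_mono w1 w.le, hH.pi, sd.norm,
    eq_bot_mono sd.inf (le_inf (le_trans (inf_le_inf_right _ hH.le) c) inf_le_left),
    h.compl sd, s.mono hH.le, fun U V u v e => by
      obtain ⟨g, hg, e'⟩ := h U V (u.trans n.le) (v.trans n.le) (ab.abel.mono u) (ab.abel.mono v) e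
      obtain ⟨a, ha, m, hm, rfl⟩ := sd.exists_mul' hg
      exact ⟨a, ha, by rw [e', ← cj_cj, cj_of_cent (ab.abel.cent le_rfl u hm)]⟩⟩
  by_cases o : 𝐎 {r} H = ⊥
  · exact k.cyc_two hr rH kR o
  · exact k.cyc_one hr rH kR w w1 t o

end CF.Bgr
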