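/-
Solvable groups in which abelian subgroups of equal order are conjugate: all subgroups of equal
order are conjugate.
-/
import Cfsg.Agent.Bgr.C

set_option autoImplicit false
set_option linter.unusedSectionVars false
set_option linter.unusedVariables false

namespace CF.Bgr
open Subgroup Cfsg CF.BG CF.BG2
open scoped commutatorElement

universe u

section
variable {G : Type*} [Group G] [Finite G] {A B C D E H K L M N P Q R S T U W X Y : Subgroup G}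
  {p r s : ℕ} {π : Set ℕ} {x y g : G}

theorem CC.of_uq (n : N ⊴ L) (hp : p.Prime) (c : ♯N = p) (q : Uq p L) (h : CC (BG.qt N L)) :
    CC L := by
  intro A B a b e
  have eN : Elem p 1 N L := elem_one hp n.le c
  have le : ∀ A, A ≤ L → p ∣ ♯A → N ≤ A := fun A a d => by
    obtain ⟨X, x⟩ := exists_elem_one hp d
    exact q _ _ (x.mono a) eN ▸ x.le
  by_cases d : p ∣ ♯A
  · exact CC.of_qt n h a b (le A a d) (le B b (e ▸ d)) e
  · exact CC.of_coprime n eN.abel.sol h a b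
      (c ▸ (Nat.Coprime.symm ((Nat.Prime.coprime_iff_not_dvd hp).2 d))) e

theorem cc_bot : CC (⊥ : Subgroup G) := fun A B a b _ =>
  ⟨1, one_mem _, by rw [le_bot_iff.1 a, le_bot_iff.1 b, cj_bot]⟩

end

theorem cc_zgrp (n : ℕ) : ∀ {G : Type u} [Group G] [Finite G] {L : Subgroup G}, ♯L < n → Sol L →
    ZGrp L → CC L := by
  induction n with
  | zero => intro G _ _ L h; omega
  | succ n ih =>
    intro G _ _ L hn s z
    by_cases h1 : L = ⊥
    · exact h1 ▸ cc_bot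
    obtain ⟨p, N, hp, n1, nL, -, ab⟩ := s.exists_abelem_norm h1 (le_norm_self L)
    have c := z.cyc nL.le ab.pi
    have l1 := ab.cyc_iff.1 c
    have l2 := ab.pi.logn_pos.2 n1
    have cN : ♯N = p := by rw [ab.pi.card_eq, show logn p (♯N) = 1 by omega, pow_one]
    have le : ∀ X, Elem p 1 X L → X = N := fun X x =>
      (z.cyc (sup_le x.le nL.le) (x.pi.sup ab.pi (.inl (x.le.trans nL.norm)))).eq_of_card
        le_sup_left le_sup_right (by rw [x.card_one, cN])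
    exact CC.of_uq nL hp cN (fun X Y x y => (le X x).trans (le Y y).symm)
      (ih (by have := card_qt_lt nL n1; omega) (s.qt N) (z.qt nL.norm))

section
variable {G : Type*} [Group G] [Finite G] {A B C D E H K L M N P Q R S T U W X Y : Subgroup G}
  {p r s : ℕ} {π : Set ℕ} {x y g : G}

theorem key' (h : BB L) (s : Sol L) (n : M ⊴ L) (ab : Abelem p M) (sy : Syl p M L)
    (w : W < M) (w1 : W ≠ ⊥) (hr : r.Prime) (rp : r ≠ p) (hR : R ≤ L)
    (kR : PiGrp {r} R) (t : R ≤ 𝐍 W) (x : Elem r 1 X L) (xc : ¬ X ≤ 𝐂 M) : Cyc R := by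
  have nC : L ⊓ 𝐂 M ⊴ L := normalIn_inf_cent n.norm
  have mC : M ≤ L ⊓ 𝐂 M := le_inf n.le ab.abel
  have dp := (sy.of_le mC inf_le_left).dprod_of_cent inf_le_right
  set D := 𝐎 ({p} : Set ℕ)ᶜ (L ⊓ 𝐂 M) with hD
  have nD : D ⊴ L := nC.O _
  have i : D ⊓ M = ⊥ := by rw [inf_comm]; exact dp.inf
  have iW : D ⊓ W = ⊥ := eq_bot_mono i (inf_le_inf_left _ w.le)
  have mN : M ≤ 𝐍 D := n.le.trans nD.norm
  have nd : ¬ r ∣ ♯D := fun d => xc ((h.elem_le nD d x).trans (dp.right_le.trans inf_le_right))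
  refine Cyc.of_qt (key (h.qt nD s) (s.qt D) (n.qt D) (ab.qt D) (sy.qt nD.norm) ?_
    (W := BG.qt D W) ?_ ?_ hr rp (qt_mono _ hR) (kR.qt D) (qt_norm _ t)) (hR.trans nD.norm)
    (PiGrp.inf_eq_bot' ((piNat_compl_single hr).2 nd) kR)
  · intro z hz
    obtain ⟨g, hg, gn, rfl⟩ := mem_qt.1 hz.1
    have h1 : ⁅zpowers g, M⁆ ≤ D := (qt_cent_iff (zpowers_le.2 gn) mN).1
      (by rw [qt_zpowers gn, zpowers_le]; exact hz.2)
    have h2 : g ∈ 𝐂 M := comm_eq_bot.1 (eq_bot_mono i (le_inf h1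
      (comm_le_right (zpowers_le.2 (n.norm hg))))) (mem_zpowers g)
    rw [← qt_sup_left mN, sup_comm, dp.sup]
    exact qe_mem_qt (mem_inf.2 ⟨hg, h2⟩) gn
  · refine lt_of_le_of_ne (qt_mono _ w.le) fun e => w.ne (eq_of_card_eq w.le ?_)
    rw [← card_qt_of_inf_bot mN i, ← card_qt_of_inf_bot (w.le.trans mN) iW, e]
  · rw [Ne, qt_eq_bot (w.le.trans mN)]
    exact fun e => w1 (eq_bot_mono iW (le_inf e le_rfl))

theorem cc_step (h : BB L) (s : Sol L) (ih : ∀ N, N ⊴ L → N ≠ ⊥ → CC (BG.qt N L)) : CC L := by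
  intro A B a b e
  by_contra hne
  have F : ∀ p : ℕ, p.Prime → 𝐎 {p} L ≠ ⊥ → Abelem p (𝐎 {p} L) ∧ Syl p (𝐎 {p} L) L ∧
      B ⊓ 𝐎 {p} L ≠ ⊥ ∧ B ⊓ 𝐎 {p} L < 𝐎 {p} L := fun p hp h1 => by
    obtain ⟨N, hN, mn⟩ := exists_minN h1 (O_normal {p} L).norm
    have ab := mn.abelem_of_pi ((O_pi _ L).le hN)
    have nL : N ⊴ L := ⟨hN.trans (O_le _ L), mn.norm⟩
    have cc := ih N nL mn.ne_bot
    obtain ⟨sy, -⟩ := (uq_or p h nL ab mn.ne_bot).resolve_right fun h' =>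
      hne (CC.of_uq nL hp h'.1 h'.2 cc A B a b e)
    rw [sy.O_eq nL.norm]
    have sA := sy.inf_of_norm a (a.trans nL.norm)
    have sB := sy.inf_of_norm b (b.trans nL.norm)
    refine ⟨ab, sy, fun h0 => hne ?_, lt_of_le_of_ne inf_le_right fun h0 => hne ?_⟩
    · rw [h0] at sB
      exact CC.of_coprime nL ab.abel.sol cc a b (e ▸ sB.pi'_of_eq_bot.coprime' ab.pi) e
    · have := eq_of_card_eq inf_le_right ((hall_card sA sB e).trans (by rw [h0]))
      exact CC.of_qt nL cc a b (this ▸ inf_le_left) (h0 ▸ inf_le_left) e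
  have L1 : L ≠ ⊥ := fun h0 => hne (by subst h0; exact cc_bot A B a b e)
  have nF := F_normal L
  have O1 : ∀ q : ℕ, q.Prime → q ∣ ♯(𝐅 L) → 𝐎 {q} L ≠ ⊥ := fun q hq d =>
    (syl_O_F q L).syl_ne_bot hq d
  have hF : Hall (piOf (♯(𝐅 L))) (𝐅 L) L := ⟨nF.le, piGrp_piOf _, fun q hq d hπ =>
    ((F q hq (O1 q hq hπ.2)).2.1.idx_of_le (O_le_F q L)).not_dvd' hq rfl d⟩
  have aF : Abel (𝐅 L) := le_cent_F fun q hq h1 => by
    rw [← (F_dprod {q} L).sup, O_F]
    exact sup_le (F q hq h1).1.abel (O_F q L ▸ (F_dprod {q} L).cent)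
  have sA := hF.inf_of_norm a (a.trans nF.norm)
  have sB := hF.inf_of_norm b (b.trans nF.norm)
  obtain ⟨K, dA, kA⟩ := sA.exists_compl (normalIn_inf_left (a.trans nF.norm)).norm
  obtain ⟨K', dB, kB⟩ := sB.exists_compl (normalIn_inf_left (b.trans nF.norm)).norm
  obtain ⟨g, hg, eW⟩ := h _ _ (inf_le_left.trans a) (inf_le_left.trans b)
    (aF.mono inf_le_right) (aF.mono inf_le_right) (hall_card sA sB e)
  set W := B ⊓ 𝐅 L with hW
  have k1 : cj g K ≤ L ⊓ 𝐍 W := le_inf (cj_le_of_mem hg (kA.le.trans a))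
    (by rw [eW, cj_norm_iff]; exact dA.norm)
  have k2 : K' ≤ L ⊓ 𝐍 W := le_inf (kB.le.trans b) dB.norm
  have sS : Sol (L ⊓ 𝐍 W) := s.mono inf_le_left
  obtain ⟨H, hH, kH⟩ := sS.exists_hall_le k2 kB.pi
  obtain ⟨c, hc, k3⟩ := hH.cj_le sS k1 (kA.pi.cj g)
  have z : ZGrp H := zGrp_of_forall fun r hr d => by
    obtain ⟨R, hR⟩ := exists_syl r H
    refine ⟨R, hR, ?_⟩
    obtain ⟨X, x⟩ := exists_elem_one hr (hR.prime_dvd hr rfl d)
    have rL : R ≤ L := hR.le.trans (hH.le.trans inf_le_left)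
    have nd : ¬ r ∣ ♯(𝐅 L) := fun d' => hH.pi r hr d ⟨hr, d'⟩
    have : ¬ ∀ q : ℕ, q.Prime → 𝐎 {q} L ≠ ⊥ → X ≤ 𝐂 (𝐎 {q} L) := fun h' =>
      nd (x.dvd.trans (card_dvd (le_trans (le_inf (x.le.trans rL) (le_cent_F h')) s.cent_F_le)))
    push Not at this
    obtain ⟨q, hq, q1, xc⟩ := this
    obtain ⟨ab, sy, w1, w⟩ := F q hq q1
    refine key' h s (O_normal _ L) ab sy w w1 hr (fun e' => nd (e' ▸
      ((O_pi _ L).dvd_card q1).trans (card_dvd (O_le_F q L)))) rL hR.pi ?_ (x.mono rL) xc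
    rw [show B ⊓ 𝐎 {q} L = W ⊓ 𝐎 {q} L by rw [hW, inf_assoc, inf_eq_right.2 (O_le_F q L)]]
    exact norm_inf (hR.le.trans (hH.le.trans inf_le_right)) (rL.trans (O_normal _ L).norm)
  obtain ⟨t, ht, e3⟩ := cc_zgrp _ (Nat.lt_succ_self _) (sS.mono hH.le) z _ _ k3 kH
    (by rw [card_cj, card_cj, hall_card kA kB e])
  have tc := mul_mem (hH.le ht) hc
  refine hne ⟨t * c * g, mul_mem tc.1 hg, ?_⟩
  rw [← dA.sup, ← dB.sup, ← cj_cj, cj_sup, cj_sup, ← eW, cj_of_norm tc.2, ← cj_cj, ← e3]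

end

theorem cc_aux (n : ℕ) : ∀ {G : Type u} [Group G] [Finite G] {L : Subgroup G}, ♯L < n → Sol L →
    BB L → CC L := by
  induction n with
  | zero => intro G _ _ L h; omega
  | succ n ih =>
    intro G _ _ L hn s h
    exact cc_step h s fun N nL n1 =>
      ih (by have := card_qt_lt nL n1; omega) (s.qt N) (h.qt nL s)

end CF.Bgr
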